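import Cfsg.Agent.H35.TI.McLCent

/-!
# S3509, the row `McL`: elements of order 3 and 5 which commute (helper109)

`exists_model` : in a group `T ≅ McL`, `x` of order 3 and `y` of order 5 commuting: there are a subgroup `Q` of order 125 and
an element `z` with `⟨z⟩ = ⟨y⟩`, `Z(Q) = ⟨z⟩`, `Q` the set of 5-elements of `C(z)`, elements of order prime to 5 do not centralise
`Q`, and an involution commuting with `x` and `y`.
-/

set_option autoImplicit false
set_option maxRecDepth 100000

namespace Cfsg.Agent.H109.RG.McL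

open Subgroup Equiv Cfsg.Agent.SporadicA.PermTab Cfsg.Agent.H904.McLCent Cfsg.Agent.McLType.X275
  Cfsg.Agent.McLType.Gens Cfsg.Agent.McLType.Model Cfsg.Agent.H58.McLOdd Cfsg.Agent.H686.Odd.McL
open Cfsg.Agent.H729.TI Cfsg.Agent.H699.TI Cfsg.Agent.H35.TI
open scoped Pointwise commutatorElement

/-- elements of order 5 -/
theorem five_cases' {y : G1} (hy : orderOf y = 5) :
    Nat.card (centralizer ({y} : Set G1)) = 25 ∨ ∃ g : G1, g * y * g⁻¹ ∈ zpowers c := by
  have : Fact (Nat.Prime 5) := ⟨Nat.prime_five⟩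
  have h1 : IsPGroup 5 (zpowers y) := IsPGroup.of_card (n := 1) (by rw [Nat.card_zpowers, hy, pow_one])
  obtain ⟨Q, hQ⟩ := h1.exists_le_sylow
  have h125 : (898128000 : ℕ).factorization 5 = 3 := by
    rw [show (898128000 : ℕ) = 5 ^ 3 * 7185024 by norm_num, Nat.factorization_mul (by norm_num) (by norm_num),
      Nat.Prime.factorization_pow Nat.prime_five]
    simp [Nat.factorization_eq_zero_of_not_dvd]
  let P : Sylow 5 G1 := Sylow.ofCard (closure {a, b}) (by rw [card_ab, card_G1, h125]; norm_num)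
  obtain ⟨g, hg⟩ := MulAction.exists_smul_eq G1 Q P
  have h2 : g * y * g⁻¹ ∈ (closure {a, b} : Subgroup G1) := by
    have h3 : ((g • Q : Sylow 5 G1) : Subgroup G1) = closure {a, b} := by rw [hg]; rfl
    rw [← h3, Sylow.coe_subgroup_smul]
    exact Subgroup.smul_mem_pointwise_smul y (MulAut.conj g) (Q : Subgroup G1) (hQ (mem_zpowers y))
  by_cases h3 : g * y * g⁻¹ ∈ zpowers c
  · exact Or.inr ⟨g, h3⟩
  · left
    rw [← card_cent_conj g y, card_cent_noncentral (show g * y * g⁻¹ ∈ P5 from h2) h3, card_a]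

/-- an involution commuting with `c` and an element of order 3 of `C(c)` -/
theorem exists_inv {x : G1} (hx : orderOf x = 3) (hc : x * c = c * x) :
    ∃ i : G1, orderOf i = 2 ∧ i * x = x * i ∧ i * c = c * i := by
  have hxc : x ∈ centralizer ({c} : Set G1) := mem_centralizer_singleton_iff.2 hc
  obtain ⟨u, hu⟩ := Cfsg.Agent.H1.RealTool.exists_conj_mem_zpowers (G := centralizer ({c} : Set G1)) Nat.prime_three
    (by rw [Cfsg.Agent.H35.TI.card_c]; norm_num) (x := ⟨s ^ 4, pow_mem s_mem 4⟩) (a := ⟨x, hxc⟩)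
    (by rw [Subgroup.orderOf_mk, order_s4]) (by rw [Subgroup.orderOf_mk, hx])
  have huc : (u : G1) * c = c * u := mem_centralizer_singleton_iff.1 u.2
  obtain ⟨k, hk⟩ := mem_zpowers_iff.1 hu
  have hk' : (s ^ 4) ^ k = (u : G1) * x * (u : G1)⁻¹ := congrArg Subtype.val hk
  have hx' : x = (u : G1)⁻¹ * (s ^ 4) ^ k * u := by rw [hk']; group
  have e1 : s ^ 3 * (s ^ 4) ^ k = (s ^ 4) ^ k * s ^ 3 :=
    (((Commute.refl s).pow_pow 3 4).zpow_right k).eq
  have e2 : s ^ 3 * c = c * s ^ 3 := ((show Commute s c from sc).pow_left 3).eq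
  have e3 : (u : G1)⁻¹ * c = c * (u : G1)⁻¹ := ((show Commute (u : G1) c from huc).inv_left).eq
  refine ⟨(u : G1)⁻¹ * s ^ 3 * u, ?_, ?_, ?_⟩
  · have h1 := (MulAut.conj (u : G1)⁻¹).orderOf_eq (s ^ 3)
    rw [MulAut.conj_apply, inv_inv, order_s3] at h1
    exact h1
  · rw [hx']
    calc (u : G1)⁻¹ * s ^ 3 * u * ((u : G1)⁻¹ * (s ^ 4) ^ k * u) = (u : G1)⁻¹ * (s ^ 3 * (s ^ 4) ^ k) * u := by group
      _ = (u : G1)⁻¹ * ((s ^ 4) ^ k * s ^ 3) * u := by rw [e1]
      _ = (u : G1)⁻¹ * (s ^ 4) ^ k * u * ((u : G1)⁻¹ * s ^ 3 * u) := by group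
  · calc (u : G1)⁻¹ * s ^ 3 * u * c = (u : G1)⁻¹ * s ^ 3 * (u * c) := by group
      _ = (u : G1)⁻¹ * (s ^ 3 * c) * u := by rw [huc]; group
      _ = ((u : G1)⁻¹ * c) * s ^ 3 * u := by rw [e2]; group
      _ = c * ((u : G1)⁻¹ * s ^ 3 * u) := by rw [e3]; group

/-- the centre of `P5` -/
theorem mem_center_P5 {w : G1} (hw : w ∈ P5) (hc : ∀ u ∈ P5, u * w = w * u) : w ∈ zpowers c := by
  by_contra h
  have h1 := card_cent_noncentral hw h
  rw [card_a] at h1
  have h2 : P5 ≤ centralizer ({w} : Set G1) := fun u hu => mem_centralizer_singleton_iff.2 (hc u hu)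
  have h3 := Subgroup.card_le_of_le h2
  rw [card_P5, h1] at h3
  norm_num at h3

/-- elements centralising `P5` are 5-elements -/
theorem five_of_cent {w : G1} (hc : ∀ u ∈ P5, u * w = w * u) : orderOf w ∣ 25 := by
  have h1 : w ∈ centralizer ({a} : Set G1) := mem_centralizer_singleton_iff.2 (hc a a_mem).symm
  have h2 := order_dvd h1
  rwa [card_a] at h2

/-- **the model of a commuting pair of elements of order 3 and 5** -/
theorem exists_model {T : Type*} [Group T] (h : Cfsg.Spor.IsoMcL T) {x y : T} (hx : orderOf x = 3) (hy : orderOf y = 5)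
    (hxy : x * y = y * x) : ∃ (Q : Subgroup T) (z : T), Nat.card Q = 125 ∧ z ∈ zpowers y ∧ y ∈ zpowers z ∧ z ≠ 1 ∧ z ∈ Q ∧
      z ^ 5 = 1 ∧ (∀ g, g * z = z * g → g ^ 125 = 1 → g ∈ Q) ∧ (∀ u ∈ Q, u * z = z * u) ∧
      (∀ w ∈ Q, (∀ u ∈ Q, u * w = w * u) → w ∈ zpowers z) ∧ (∀ w, (∀ u ∈ Q, u * w = w * u) → orderOf w ∣ 25) ∧
      Nat.card (centralizer ({y} : Set T)) = 750 ∧ ∃ i : T, orderOf i = 2 ∧ i * x = x * i ∧ i * y = y * i := by
  obtain ⟨f⟩ := h
  obtain ⟨f1⟩ := isoMcL_G1
  let e : T ≃* G1 := f.trans f1.symm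
  have hex : orderOf (e x) = 3 := by rw [e.orderOf_eq, hx]
  have hey : orderOf (e y) = 5 := by rw [e.orderOf_eq, hy]
  have hexy : e x * e y = e y * e x := by rw [← map_mul, hxy, map_mul]
  rcases five_cases' hey with h1 | ⟨g, hg⟩
  · exfalso
    have h2 : e x ∈ centralizer ({e y} : Set G1) := mem_centralizer_singleton_iff.2 hexy
    have h3 := order_dvd h2
    rw [h1, hex] at h3
    norm_num at h3
  -- move to `c`
  let e' : T ≃* G1 := e.trans (MulAut.conj g)
  have hyc : e' y ∈ zpowers c := hg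
  have hey' : orderOf (e' y) = 5 := by rw [e'.orderOf_eq, hy]
  have hex' : orderOf (e' x) = 3 := by rw [e'.orderOf_eq, hx]
  have hy1 : e' y ≠ 1 := by
    intro h1
    rw [h1, orderOf_one] at hey'
    norm_num at hey'
  have hcy : c ∈ zpowers (e' y) := mem_zpowers_of_prime Nat.prime_five order_c hy1 hyc
  have hxy' : e' x * e' y = e' y * e' x := by rw [← map_mul, hxy, map_mul]
  have hcom : ∀ {w : G1}, w * e' y = e' y * w → w * c = c * w := by
    intro w hw
    obtain ⟨k, hk⟩ := mem_zpowers_iff.1 hcy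
    rw [← hk]
    exact ((show Commute w (e' y) from hw).zpow_right k).eq
  obtain ⟨i, hi, hix, hic⟩ := exists_inv hex' (hcom hxy')
  have back : ∀ w : G1, e' (e'.symm w) = w := e'.apply_symm_apply
  have tr : ∀ {u v : T}, e' u * e' v = e' v * e' u → u * v = v * u := by
    intro u v huv
    apply e'.injective
    rw [map_mul, map_mul, huv]
  have trz : ∀ {u v : T}, e' u ∈ zpowers (e' v) → u ∈ zpowers v := by
    intro u v huv
    obtain ⟨k, hk⟩ := mem_zpowers_iff.1 huv
    refine mem_zpowers_iff.2 ⟨k, ?_⟩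
    apply e'.injective
    rw [map_zpow, hk]
  refine ⟨P5.comap e'.toMonoidHom, e'.symm c, ?_, ?_, ?_, ?_, ?_, ?_, ?_, ?_, ?_, ?_, ?_, e'.symm i, ?_, ?_, ?_⟩
  · have h1 : Nat.card (P5.comap e'.toMonoidHom : Subgroup T) = Nat.card P5 :=
      Nat.card_congr ⟨fun u => ⟨e' u.1, u.2⟩, fun w => ⟨e'.symm w.1, by
        change e' (e'.symm w.1) ∈ P5
        rw [back]
        exact w.2⟩, fun u => Subtype.ext (e'.symm_apply_apply u.1), fun w => Subtype.ext (back w.1)⟩
    rw [h1, card_P5]
  · exact trz (by rw [back]; exact hcy)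
  · exact trz (by rw [back]; exact hyc)
  · intro h1
    apply c_ne
    rw [← back c, h1, map_one]
  · change e' (e'.symm c) ∈ P5
    rw [back]
    exact c_mem
  · rw [← map_pow, c_pow, map_one]
  · intro w hw hw2
    change e' w ∈ P5
    refine mem_P5 ?_ (by rw [← map_pow, hw2, map_one])
    have := congrArg e' hw
    rw [map_mul, map_mul, back] at this
    exact this
  · intro u hu
    apply tr
    rw [back]
    exact mem_centralizer_singleton_iff.1 (closure_le_c hu)
  · intro w hw hw2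
    refine trz ?_
    rw [back]
    refine mem_center_P5 hw fun u hu => ?_
    have h1 := hw2 (e'.symm u) (by
      change e' (e'.symm u) ∈ P5
      rw [back]
      exact hu)
    have h2 := congrArg e' h1
    rwa [map_mul, map_mul, back] at h2
  · intro w hw2
    rw [← e'.orderOf_eq]
    refine five_of_cent fun u hu => ?_
    have h1 := hw2 (e'.symm u) (by
      change e' (e'.symm u) ∈ P5
      rw [back]
      exact hu)
    have h2 := congrArg e' h1
    rwa [map_mul, map_mul, back] at h2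
  · have h1 : centralizer ({e' y} : Set G1) = centralizer ({c} : Set G1) :=
      le_antisymm (cent_le_of_mem hcy) (cent_le_of_mem hyc)
    rw [← Cfsg.Agent.H35.TI.card_c, ← h1]
    exact Nat.card_congr ⟨fun u => ⟨e' u.1, by
      rw [mem_centralizer_singleton_iff, ← map_mul, mem_centralizer_singleton_iff.1 u.2, map_mul]⟩,
      fun w => ⟨e'.symm w.1, by
        rw [mem_centralizer_singleton_iff]
        apply e'.injective
        rw [map_mul, map_mul, e'.apply_symm_apply]
        exact mem_centralizer_singleton_iff.1 w.2⟩,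
      fun u => Subtype.ext (e'.symm_apply_apply u.1), fun w => Subtype.ext (e'.apply_symm_apply w.1)⟩
  · rw [e'.symm.orderOf_eq, hi]
  · apply tr
    rw [back]
    exact hix
  · apply tr
    rw [back]
    obtain ⟨k, hk⟩ := mem_zpowers_iff.1 hyc
    rw [← hk]
    exact ((show Commute i c from hic).zpow_right k).eq

/-- centralisers of elements of order 7 -/
theorem seven {T : Type*} [Group T] (h : Cfsg.Spor.IsoMcL T) {y : T} (hy : orderOf y = 7) :
    Nat.card (centralizer ({y} : Set T)) ∣ 14 := by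
  obtain ⟨f⟩ := h
  obtain ⟨f1⟩ := isoMcL_G1
  let e : T ≃* G1 := f.trans f1.symm
  have h1 := seven_dvd (y := e y) (by rw [e.orderOf_eq, hy])
  have h2 : Nat.card (centralizer ({y} : Set T)) = Nat.card (centralizer ({e y} : Set G1)) :=
    Nat.card_congr ⟨fun u => ⟨e u.1, by
      rw [mem_centralizer_singleton_iff, ← map_mul, mem_centralizer_singleton_iff.1 u.2, map_mul]⟩,
      fun w => ⟨e.symm w.1, by
        rw [mem_centralizer_singleton_iff]
        apply e.injective
        rw [map_mul, map_mul, e.apply_symm_apply]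
        exact mem_centralizer_singleton_iff.1 w.2⟩,
      fun u => Subtype.ext (e.symm_apply_apply u.1), fun w => Subtype.ext (e.apply_symm_apply w.1)⟩
  rwa [h2]

/-- centralisers of elements of order 11 -/
theorem eleven {T : Type*} [Group T] (h : Cfsg.Spor.IsoMcL T) {y : T} (hy : orderOf y = 11) :
    Nat.card (centralizer ({y} : Set T)) = 11 := by
  obtain ⟨f⟩ := h
  obtain ⟨f1⟩ := isoMcL_G1
  let e : T ≃* G1 := f.trans f1.symm
  have h1 := eleven_card (y := e y) (by rw [e.orderOf_eq, hy])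
  have h2 : Nat.card (centralizer ({y} : Set T)) = Nat.card (centralizer ({e y} : Set G1)) :=
    Nat.card_congr ⟨fun u => ⟨e u.1, by
      rw [mem_centralizer_singleton_iff, ← map_mul, mem_centralizer_singleton_iff.1 u.2, map_mul]⟩,
      fun w => ⟨e.symm w.1, by
        rw [mem_centralizer_singleton_iff]
        apply e.injective
        rw [map_mul, map_mul, e.apply_symm_apply]
        exact mem_centralizer_singleton_iff.1 w.2⟩,
      fun u => Subtype.ext (e.symm_apply_apply u.1), fun w => Subtype.ext (e.apply_symm_apply w.1)⟩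
  rwa [h2]

end Cfsg.Agent.H109.RG.McL
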